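import Cfsg.Agent.Lib.PSolvable.Basic
import Cfsg.Agent.Lib.CoprimeAction.Basic
import Cfsg.Agent.Lib.LBalance.PComponent

/-!
A `p'`-group normalizing a Sylow `p`-subgroup of a `p`-soluble group is centralized by the
`p`-elements of its normalizer.
-/

set_option autoImplicit false

namespace CfsgLib.PSolvableInv

open Cfsg

universe u

theorem mem_centralizer_aux {p : ℕ} [hp : Fact p.Prime] (n : ℕ) :
    ∀ (G : Type u) [Group G] [Finite G], Nat.card G ≤ n → IsPSolvable p G →
      ∀ (Q : Subgroup G), ¬ p ∣ Nat.card Q → ∀ P : Sylow p G,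
        Q ≤ Subgroup.normalizer ((P : Subgroup G) : Set G) →
        ∀ (x : G) (k : ℕ), x ^ p ^ k = 1 → x ∈ Subgroup.normalizer (Q : Set G) →
          x ∈ Subgroup.centralizer (Q : Set G) := by
  induction n with
  | zero => intro G _ _ h; exact absurd h (Nat.card_pos (α := G)).not_ge
  | succ n ih =>
    intro G _ _ hn hG Q hQ P hQP x k hxk hxQ
    rcases subsingleton_or_nontrivial G with hs | hs
    · rw [Subsingleton.elim x 1]; exact one_mem _
    obtain ⟨M, hMn, hM1, hM⟩ : ∃ M : Subgroup G, M.Normal ∧ M ≠ ⊥ ∧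
        (IsPGroup p M ∨ (Nat.card M).Coprime p) := by
      rcases CfsgLib.PSolvable.core_ne_bot hG with h | h
      · exact ⟨pCore p G, Subgroup.sSup_normal _ fun _ h => h.1, h,
          Or.inl (CfsgLib.Cores.isPGroup_pCore p G)⟩
      · exact ⟨pPrimeCore p G, Subgroup.sSup_normal _ fun _ h => h.1, h,
          Or.inr (CfsgLib.Cores.card_pPrimeCore_coprime p)⟩
    haveI := hMn
    set f := QuotientGroup.mk' M with hf
    have hcard : Nat.card (G ⧸ M) ≤ n := by
      have h1 := Subgroup.card_eq_card_quotient_mul_card_subgroup M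
      have h2 : 2 ≤ Nat.card M := (Subgroup.one_lt_card_iff_ne_bot M).2 hM1
      nlinarith [Nat.card_pos (α := G ⧸ M)]
    have hQ' : ¬ p ∣ Nat.card (Q.map f) := fun h => hQ (h.trans (Subgroup.card_map_dvd Q f))
    have hfs : Function.Surjective f := QuotientGroup.mk'_surjective M
    let P' : Sylow p (G ⧸ M) := P.mapSurjective hfs
    have hQP' : Q.map f ≤ Subgroup.normalizer ((P' : Subgroup (G ⧸ M)) : Set (G ⧸ M)) := by
      show Q.map f ≤ Subgroup.normalizer (((P : Subgroup G).map f : Subgroup (G ⧸ M)) : Set _)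
      exact (Subgroup.map_mono hQP).trans (Subgroup.le_normalizer_map f)
    have hx' := ih (G ⧸ M) hcard (CfsgLib.PSolvable.isPSolvable_quotient hG M) (Q.map f) hQ' P' hQP'
      (f x) k (by rw [← map_pow, hxk, map_one]) (Subgroup.le_normalizer_map f ⟨x, hxQ, rfl⟩)
    -- `x` centralizes `Q ⊓ M`
    have hN : x ∈ Subgroup.centralizer ((Q ⊓ M : Subgroup G) : Set G) := by
      rcases hM with hM | hM
      · have hbot : Q ⊓ M = ⊥ := by
          obtain ⟨e, he⟩ := IsPGroup.iff_card.1 (hM.to_le (inf_le_right : Q ⊓ M ≤ M))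
          refine Subgroup.eq_bot_of_card_eq _ ?_
          rw [he]
          rcases Nat.eq_zero_or_pos e with rfl | hpos
          · rw [pow_zero]
          · exact absurd ((dvd_pow_self p hpos.ne').trans
              (he ▸ Subgroup.card_dvd_of_le (inf_le_left : Q ⊓ M ≤ Q))) hQ
        rw [hbot]
        intro y hy
        rw [Subgroup.mem_bot.1 hy, one_mul, mul_one]
      · set Q₀ := Q ⊓ M with hQ₀
        have hPC : (P : Subgroup G) ≤ Subgroup.centralizer (Q₀ : Set G) := by
          intro z hz y hy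
          have hy' : y ∈ Q₀ := hy
          have h1 : z * y * z⁻¹ * y⁻¹ ∈ (P : Subgroup G) := by
            rw [show z * y * z⁻¹ * y⁻¹ = z * (y * z⁻¹ * y⁻¹) by group]
            exact mul_mem hz ((Subgroup.mem_normalizer_iff.1 (hQP hy'.1) z⁻¹).1 (inv_mem hz))
          have h2 : z * y * z⁻¹ * y⁻¹ ∈ M :=
            mul_mem (hMn.conj_mem y hy'.2 z) (inv_mem hy'.2)
          have hdisj : (P : Subgroup G) ⊓ M = ⊥ := by
            refine Subgroup.inf_eq_bot_of_coprime ?_
            obtain ⟨e, he⟩ := P.2.exists_card_eq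
            rw [he]
            exact (hM.symm).pow_left e
          have h3 : z * y * z⁻¹ * y⁻¹ = 1 := by
            have : z * y * z⁻¹ * y⁻¹ ∈ (P : Subgroup G) ⊓ M := ⟨h1, h2⟩
            rwa [hdisj, Subgroup.mem_bot] at this
          rw [mul_inv_eq_one, mul_inv_eq_iff_eq_mul] at h3
          exact h3.symm
        set N := Subgroup.normalizer (Q₀ : Set G)
        have hxN : x ∈ N := by
          refine Subgroup.mem_normalizer_iff.2 fun y => ?_
          show y ∈ Q ∧ y ∈ M ↔ x * y * x⁻¹ ∈ Q ∧ x * y * x⁻¹ ∈ M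
          rw [Subgroup.mem_normalizer_iff.1 hxQ y]
          refine and_congr_right fun _ => ⟨fun h => hMn.conj_mem y h x, fun h => ?_⟩
          simpa [mul_assoc] using hMn.conj_mem _ h x⁻¹
        haveI : ((Subgroup.centralizer (Q₀ : Set G)).subgroupOf N).Normal :=
          Subgroup.normalizerMonoidHom_ker Q₀ ▸ MonoidHom.normal_ker _
        have hidx : ((Subgroup.centralizer (Q₀ : Set G)).subgroupOf N).index.Coprime p := by
          refine (hp.out.coprime_iff_not_dvd.2 fun hd => ?_).symm
          exact P.not_dvd_index (hd.trans ((Dvd.intro _ (Subgroup.relIndex_mul_index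
            (Subgroup.centralizer_le_normalizer _))).trans (Subgroup.index_dvd_of_le hPC)))
        exact CfsgLib.LBalance.mem_of_normal_coprime_index hidx (x := (⟨x, hxN⟩ : N)) (k := k)
          (Subtype.ext (by simpa using hxk))
    refine CfsgLib.CoprimeAction.le_centralizer_of_series (A := Subgroup.zpowers x) (K := Q)
      (N := Q ⊓ M) inf_le_left ?_ (Subgroup.zpowers_le.2 hN) ?_ (Subgroup.mem_zpowers x)
    · rw [Nat.card_zpowers]
      refine Nat.Coprime.coprime_dvd_left (orderOf_dvd_of_pow_eq_one hxk) ?_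
      exact Nat.Coprime.coprime_dvd_right (Subgroup.card_dvd_of_le inf_le_left)
        ((hp.out.coprime_iff_not_dvd.2 hQ).pow_left k)
    · intro a ha q hq
      refine ⟨Q.mul_mem (Q.inv_mem hq)
        ((Subgroup.mem_normalizer_iff.1 (Subgroup.zpowers_le.2 hxQ ha) q).1 hq), ?_⟩
      show q⁻¹ * (a * q * a⁻¹) ∈ M
      rw [← QuotientGroup.eq_one_iff]
      show f (q⁻¹ * (a * q * a⁻¹)) = 1
      have hc : f q * f a = f a * f q :=
        (Subgroup.zpowers_le.2 hx' (by
          obtain ⟨i, rfl⟩ := ha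
          exact ⟨i, by simp⟩)) _ ⟨q, hq, rfl⟩
      rw [map_mul, map_mul, map_mul, map_inv, map_inv, ← hc]
      group

theorem mem_centralizer_of_invariant_sylow {p : ℕ} [Fact p.Prime] {G : Type u} [Group G] [Finite G]
    (hG : IsPSolvable p G) {Q : Subgroup G} (hQ : ¬ p ∣ Nat.card Q) (P : Sylow p G)
    (hQP : Q ≤ Subgroup.normalizer ((P : Subgroup G) : Set G)) {x : G} {k : ℕ}
    (hx : x ^ p ^ k = 1) (hxQ : x ∈ Subgroup.normalizer (Q : Set G)) :
    x ∈ Subgroup.centralizer (Q : Set G) :=
  mem_centralizer_aux (Nat.card G) G le_rfl hG Q hQ P hQP x k hx hxQ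

end CfsgLib.PSolvableInv
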